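import Cfsg.Agent.H9.GNPair
import Cfsg.Agent.H8.OSL
import Cfsg.Agent.H7.PMin
import Cfsg.Agent.L0.SubnormalSylow

/-! Transfer in rank one groups whose large abelian subgroups are centrally large. -/

set_option autoImplicit false
set_option linter.unusedSectionVars false
universe u
open Subgroup Matrix Cfsg
open Cfsg.H7 (cj mem_cj IsSylowIn MinOver)
open Cfsg.H9 (Loc CLA ctr)
open scoped commutatorElement MatrixGroups

namespace Cfsg.H8

variable {X : Type u} [Group X] {p : ℕ}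

/-- subgroups of largest Chermak-Delgado measure in `S` -/
def CDA (S Y : Subgroup X) : Prop := Y ≤ S ∧ H4.CDL (Y.subgroupOf S)

theorem card_meas {S Y : Subgroup X} (h : Y ≤ S) :
    Nat.card (Y.subgroupOf S) * Nat.card (centralizer (Y.subgroupOf S : Set S)) =
      Nat.card Y * Nat.card ↥(S ⊓ centralizer (Y : Set X)) := by
  rw [H7.centralizer_subgroupOf h, H7.card_subgroupOf_eq, H7.card_subgroupOf_eq, inf_eq_left.2 h,
    inf_comm]

variable [Finite X]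

theorem CDA.of_le {S Y Z : Subgroup X} (h : CDA S Y) (hZ : Z ≤ S)
    (h1 : Nat.card Y * Nat.card ↥(S ⊓ centralizer (Y : Set X)) ≤
      Nat.card Z * Nat.card ↥(S ⊓ centralizer (Z : Set X))) : CDA S Z :=
  ⟨hZ, h.2.of_le (by rwa [card_meas h.1, card_meas hZ])⟩

theorem CDA.meas_le {S Y Z : Subgroup X} (h : CDA S Y) (hZ : Z ≤ S) :
    Nat.card Z * Nat.card ↥(S ⊓ centralizer (Z : Set X)) ≤
      Nat.card Y * Nat.card ↥(S ⊓ centralizer (Y : Set X)) := by
  rw [← card_meas h.1, ← card_meas hZ]; exact h.2 _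

theorem CDA.perm {S Y Z : Subgroup X} (h : CDA S Y) (h' : CDA S Z) : H1.Perm Y Z := by
  have := (h.2.perm h'.2).map S.subtype
  rwa [map_subgroupOf_eq_of_le h.1, map_subgroupOf_eq_of_le h'.1] at this

theorem CDA.inf {S Y Z : Subgroup X} (h : CDA S Y) (h' : CDA S Z) : CDA S (Y ⊓ Z) :=
  ⟨inf_le_left.trans h.1, h.2.inf h'.2⟩

theorem CDA.cent_inf {S Y Z : Subgroup X} (h : CDA S Y) (h' : CDA S Z) :
    S ⊓ centralizer ((Y ⊓ Z : Subgroup X) : Set X) =
      S ⊓ centralizer (Y : Set X) ⊔ S ⊓ centralizer (Z : Set X) := by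
  have := congrArg (map S.subtype) (h.2.centralizer_inf h'.2)
  rwa [Subgroup.map_sup, H7.map_centralizer_subgroup, H7.map_centralizer_subgroup,
    H7.map_centralizer_subgroup, map_subgroupOf_eq_of_le h.1, map_subgroupOf_eq_of_le h'.1,
    show Y.subgroupOf S ⊓ Z.subgroupOf S = (Y ⊓ Z).subgroupOf S from rfl,
    map_subgroupOf_eq_of_le (inf_le_left.trans h.1)] at this

theorem cda_of_maxAb {S R A : Subgroup X} (h : CLA S R) (hR : R ≤ centralizer (R : Set X))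
    (hA : MaxAb 0 S A) : CDA S A := by
  obtain ⟨R, rfl⟩ := H9.exists_eq_map_subtype h.1
  have h1 := H9.cla_subtype_iff.1 h
  have h2 : CDA S (R.map S.subtype) := ⟨h.1, by
    rw [show (R.map S.subtype).subgroupOf S = R from comap_map_eq_self_of_injective
      S.subtype_injective R]; exact h1.1⟩
  have h3 : S ⊓ centralizer (R.map S.subtype : Set X) ≤ R.map S.subtype := by
    rw [← H7.map_centralizer_subgroup]; exact map_mono h1.2
  have h4 := H9.maxAb_card hA h.1 hR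
  exact h2.of_le hA.le (Nat.mul_le_mul h4 ((card_le_of_le h3).trans (h4.trans
    (card_le_of_le (le_inf hA.le hA.comm)))))

omit [Finite X] in
/-- elements whose conjugates by `s` all have the same image -/
def cst {V : Type*} [AddCommGroup V] {Q F : Subgroup X} (C : SecMap V Q F) (s : Set X)
    (hs : ∀ l ∈ s, l ∈ normalizer (Q : Set X)) : Subgroup X where
  carrier := {x | x ∈ Q ∧ ∀ l ∈ s, ∀ l' ∈ s, C.π (l⁻¹ * x * l) = C.π (l'⁻¹ * x * l')}
  one_mem' := ⟨one_mem _, fun l _ l' _ => by simp⟩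
  mul_mem' := fun {x y} hx hy => ⟨mul_mem hx.1 hy.1, fun l hl l' hl' => by
    have e : ∀ k ∈ s, C.π (k⁻¹ * (x * y) * k) = C.π (k⁻¹ * x * k) + C.π (k⁻¹ * y * k) :=
      fun k hk => by
        rw [← C.map_mul _ (conj_mem_of_mem_normalizer' (hs k hk) hx.1) _
          (conj_mem_of_mem_normalizer' (hs k hk) hy.1)]
        congr 1; group
    rw [e l hl, e l' hl', hx.2 l hl l' hl', hy.2 l hl l' hl']⟩
  inv_mem' := fun {x} hx => ⟨inv_mem hx.1, fun l hl l' hl' => by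
    have e : ∀ k ∈ s, C.π (k⁻¹ * x⁻¹ * k) = -C.π (k⁻¹ * x * k) := fun k hk => by
      rw [← C.map_inv (conj_mem_of_mem_normalizer' (hs k hk) hx.1)]
      congr 1; group
    rw [e l hl, e l' hl', hx.2 l hl l' hl']⟩

omit [Finite X] in
theorem two_pt {V : Type*} {f : X → X → V} {L M D : Subgroup X} {g₁ g₂ a : X}
    (hf : ∀ x l, f (a * x * a⁻¹) (a * l) = f x l) (h1 : g₁ ∈ L) (ha : a ∈ L)
    (hn : a ∈ normalizer (D : Set X))
    (hc : ∀ x ∈ D, ∀ l ∈ L, ∀ l' ∈ L, g₁⁻¹ * l ∉ M → g₂⁻¹ * l ∉ M → g₁⁻¹ * l' ∉ M →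
      g₂⁻¹ * l' ∉ M → f x l = f x l')
    (e1 : g₂⁻¹ * a * g₂ ∈ M) (e2 : g₁⁻¹ * a * g₁ ∉ M) (e3 : g₁⁻¹ * (a * a) * g₁ ∉ M)
    (e4 : g₂⁻¹ * g₁ ∉ M) {x l : X} (hx : x ∈ D) (hl : l ∈ L) (l1 : g₁⁻¹ * l ∉ M)
    (l2 : g₂⁻¹ * l ∉ M) : f x g₁ = f x l := by
  have k1 : g₂⁻¹ * (a * g₁) ∉ M := fun h => e4 (by
    simpa [mul_assoc] using mul_mem (inv_mem e1) h)
  have k2 : g₂⁻¹ * (a * (a * g₁)) ∉ M := fun h => k1 (by
    simpa [mul_assoc] using mul_mem (inv_mem e1) h)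
  rw [← hf, hc _ (conj_mem_of_mem_normalizer hn hx) _ (mul_mem ha h1) _
    (mul_mem ha (mul_mem ha h1)) (by rwa [← mul_assoc]) k1 (by simpa [mul_assoc] using e3) k2, hf]
  exact hc x hx _ (mul_mem ha h1) l hl (by rwa [← mul_assoc]) k1 l1 l2

variable [hp : Fact p.Prime] {L S M : Subgroup X}

theorem loc_bruhat (h : Loc p L) (hS : IsSylowIn p S L) (hu : MinOver S L M) {l l' : X}
    (hl : l ∈ L) (hl' : l' ∈ L) (h1 : l ∉ M) (h2 : l' ∉ M) : ∃ s ∈ S, l⁻¹ * s * l' ∈ M := by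
  obtain ⟨T, F, _, _, _, Γ, f, -⟩ := h.exists_frame' hS
  have hB : H9.ldom Γ (upper F) ≤ M := by
    refine (hu.eq_or_le (X := H9.ldom Γ (upper F)) (fun t ht => ?_)
      fun g ⟨_, _, hg⟩ => f.l.mem hg).resolve_left fun e => f.l.not_le_upper e.ge
    obtain ⟨b, hb⟩ := f.i₀.ex t ht
    exact ⟨_, U_mem_upper b, hb⟩
  obtain ⟨A, hA⟩ := f.l.ex l hl
  obtain ⟨B, hB'⟩ := f.l.ex l' hl'
  have a1 : A 1 0 ≠ 0 := fun e => h1 (hB ⟨A, mem_upper.2 e, hA⟩)
  have b1 : B 1 0 ≠ 0 := fun e => h2 (hB ⟨B, mem_upper.2 e, hB'⟩)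
  obtain ⟨s, hs, h3⟩ := f.i₀.surj ((A 0 0 * B 1 0 - A 1 0 * B 0 0) / (A 1 0 * B 1 0))
  refine ⟨s, hs, hB ⟨_, mem_upper.2 ?_, H9.gmul (H9.gmul (H9.ginv hA) h3) hB'⟩⟩
  simp [Matrix.SpecialLinearGroup.coe_inv, Matrix.adjugate_fin_two, H3.U_coe, Matrix.mul_apply,
    Fin.sum_univ_two]
  field_simp
  ring

theorem loc_fix (h : Loc p L) (hS : IsSylowIn p S L) (hu : MinOver S L M) {a l : X} (ha : a ∈ S)
    (hQ : a ∉ pCoreOf p L) (hl : l ∈ L) (h1 : l⁻¹ * a * l ∈ M) : l ∈ M := by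
  by_contra h2
  refine hu.not_le (h.gen hS (hS.cj_of_mem (inv_mem hl))
    (hu.sup_cj_eq (inv_mem hl) (by simpa using h2)) (x := l⁻¹ * a * l)
    (by simpa using H7.conj_mem_cj (g := l⁻¹) ha) (fun e => hQ ?_) hu.le h1)
  simpa [mul_assoc] using conj_mem_of_mem_normalizer (H7.le_normalizer_pCoreOf p L hl) e

local notation "QQ" => pCoreOf p L

theorem loc_const (hp2 : p ≠ 2) (h : Loc p L) (hS : IsSylowIn p S L) (hu : MinOver S L M)
    {A F : Subgroup X} (hA : MaxAb 0 S A) (hQ : ¬ A ≤ pCoreOf p L)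
    (hcd : ∀ B, MaxAb 0 S B → CDA S B) (hF : ⁅pCoreOf p L, M⁆ ≤ F) {V : Type*} [AddCommGroup V]
    (C : SecMap V (pCoreOf p L) (pCoreOf p L ⊓ F)) :
    A ⊓ pCoreOf p L ⊔ ctr (pCoreOf p L) ≤ cst C L (H7.le_normalizer_pCoreOf p L) := by
  obtain ⟨h1, h2⟩ := h.repl' h.fmV hS hA hQ
  have nQ := H7.le_normalizer_pCoreOf p L
  have hQS := hS.pCoreOf_le
  set A' := A ⊓ QQ ⊔ ctr QQ
  have hA' : A' ≤ QQ := sup_le inf_le_right inf_le_left
  have hML := hu.lt.le
  have inv : ∀ m ∈ M, ∀ x ∈ QQ, C.π (m⁻¹ * x * m) = C.π x := fun m hm x hx => by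
    have e := C.map_commutator (nQ (inv_mem (hML hm))) hx
    have e2 := commutatorElement_mem_of_normalizer (nQ (inv_mem (hML hm))) hx
    rw [(C.eq_zero _ e2).2 ⟨e2, hF (H7.commutator_mem_commutator' hx (inv_mem hm))⟩, inv_inv] at e
    exact sub_eq_zero.1 e.symm
  have inv' : ∀ x ∈ QQ, ∀ l ∈ L, ∀ l', l⁻¹ * l' ∈ M →
      C.π (l'⁻¹ * x * l') = C.π (l⁻¹ * x * l) := fun x hx l hl l' e => by
    rw [← inv _ e _ (conj_mem_of_mem_normalizer' (nQ hl) hx)]
    congr 1; group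
  obtain ⟨g, hg, hgM⟩ := SetLike.not_le_iff_exists.1 hu.not_le
  obtain ⟨a, ha, haQ⟩ := SetLike.not_le_iff_exists.1 hQ
  have haa : a * a ∉ QQ := fun e => haQ (by
    obtain ⟨k, hk⟩ := H7.isPGroup_iff_mem.1 hS.isPGroup a (hA.le ha)
    exact H7.mem_of_pow_mem_of_pow_mem (((Nat.coprime_primes Nat.prime_two hp.out).2
      hp2.symm).pow_right k) (by rwa [pow_two]) (hk ▸ one_mem _))
  have c1 : ∀ x ∈ A ⊓ QQ, ∀ l ∈ L, ∀ l' ∈ L, l ∉ M → l' ∉ M →
      C.π (l⁻¹ * x * l) = C.π (l'⁻¹ * x * l') := fun x hx l hl l' hl' e1 e2 => by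
    obtain ⟨s, hs, e⟩ := loc_bruhat h hS hu hl hl' e1 e2
    obtain ⟨b, hb, q, hq, rfl⟩ := (H7.mem_sup_of_le_normalizer ((hA.le.trans hS.le).trans nQ)).1
      (h1.ge hs)
    have e3 := inv' x hx.2 _ (mul_mem (inv_mem (hS.le hs)) hl) l' (by simpa [mul_assoc] using e)
    have e4 := C.map_conj (conj_mem_of_mem_normalizer' (nQ (mul_mem (inv_mem (hS.le (hA.le hb))) hl))
      hq) (conj_mem_of_mem_normalizer' (nQ (mul_mem (inv_mem (hS.le (hA.le hb))) hl)) hx.2)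
    have e5 : (b⁻¹ * l)⁻¹ * x * (b⁻¹ * l) = l⁻¹ * x * l := by
      have := hA.comm hx.1 b hb
      calc _ = l⁻¹ * (b * x) * (b⁻¹ * l) := by group
        _ = _ := by rw [this]; group
    rw [e3, ← e5, ← e4]
    congr 1; group
  set D := A ⊓ QQ ⊔ cj g (A ⊓ QQ)
  have hD : D ≤ cst C {l | l ∈ L ∧ l ∉ M ∧ g⁻¹ * l ∉ M} fun l hl => nQ hl.1 := by
    refine sup_le (fun x hx => ⟨hx.2, fun l hl l' hl' => c1 x hx l hl.1 l' hl'.1 hl.2.1 hl'.2.1⟩)
      fun x hx => ⟨H7.cj_le_of_le (nQ hg) inf_le_right hx, fun l hl l' hl' => ?_⟩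
    have := c1 _ (mem_cj.1 hx) _ (mul_mem (inv_mem hg) hl.1) _ (mul_mem (inv_mem hg) hl'.1)
      hl.2.2 hl'.2.2
    convert this using 2 <;> group
  have hV : ctr QQ ≤ D := by
    have e : ctr QQ ⊓ centralizer (S : Set X) ≤ A ⊓ QQ := le_inf (H9.maxAb_le hA
      ((inf_le_left.trans inf_le_left).trans hQS) (inf_le_right.trans (H7.centralizer_anti hA.le)))
      (inf_le_left.trans inf_le_left)
    rw [← h.sup_cent' h.fmV hS (hS.cj_of_mem hg) (hu.sup_cj_eq hg hgM)]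
    refine sup_le_sup e (le_trans ?_ (H7.cj_mono e))
    rw [H7.cj_inf, H7.cj_centralizer, H7.cj_eq_of_mem_normalizer (h.fmV.n hg)]
  have hn : ∀ l ∈ L, A ≤ normalizer ((cj l A' ⊔ A ⊓ QQ : Subgroup X) : Set X) := fun l hl => by
    have e1 : cj l A' ≤ QQ := H7.cj_le_of_le (nQ hl) hA'
    have e2 := hcd _ (H9.maxAb_of_card h2 (e1.trans hQS) (H7.cj_le_centralizer_cj l h2.comm)
      (H7.card_cj l A').ge)
    rw [← H4.perm_dedekind (e2.perm (hcd A hA)) e1]
    exact H7.le_normalizer_inf (H7.le_normalizer_of_le le_sup_right) ((hA.le.trans hS.le).trans nQ)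
  have cV : ∀ l ∈ L, cj l (ctr QQ) = ctr QQ := fun l hl => H7.cj_eq_of_mem_normalizer (h.fmV.n hl)
  have n1 : A ≤ normalizer (D : Set X) := by
    have e : cj g A' ⊔ A ⊓ QQ = D := by
      rw [H7.cj_sup, cV g hg]
      exact le_antisymm (sup_le (sup_le le_sup_right hV) le_sup_left)
        (sup_le le_sup_right (le_sup_of_le_left le_sup_left))
    exact e ▸ hn g hg
  have n2 : cj g A ≤ normalizer (D : Set X) := by
    have e : cj g (cj g⁻¹ A' ⊔ A ⊓ QQ) = D := by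
      rw [H7.cj_sup, H7.cj_cj_inv]
      exact le_antisymm (sup_le (sup_le le_sup_left hV) le_sup_right)
        (sup_le (le_sup_of_le_left le_sup_left) le_sup_right)
    exact e ▸ H7.cj_le_normalizer_cj g (hn _ (inv_mem hg))
  have hf : ∀ a x l : X, C.π ((a * l)⁻¹ * (a * x * a⁻¹) * (a * l)) = C.π (l⁻¹ * x * l) :=
    fun a x l => by congr 1; group
  have haL := hS.le (hA.le ha)
  have f1 : ∀ b ∈ A, b ∉ QQ → g⁻¹ * b * g ∉ M := fun b hb e1 e2 =>
    hgM (loc_fix h hS hu (hA.le hb) e1 hg e2)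
  have f2 : ∀ b ∈ A, b ∉ QQ → g * b * g⁻¹ ∉ M := fun b hb e1 e2 =>
    hgM (by simpa using loc_fix h hS hu (hA.le hb) e1 (inv_mem hg) (by simpa using e2))
  have hAM := hA.le.trans hu.le
  have t1 : ∀ x ∈ D, ∀ l ∈ L, l ∉ M → g⁻¹ * l ∉ M → C.π (g⁻¹ * x * g) = C.π (l⁻¹ * x * l) :=
    fun x hx l hl l1 l2 => two_pt (f := fun x l => C.π (l⁻¹ * x * l)) (g₂ := 1) (hf a) hg haL (n1 ha)
      (fun x hx l hl l' hl' e1 e2 e3 e4 => (hD hx).2 l ⟨hl, by simpa using e2, e1⟩ l'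
        ⟨hl', by simpa using e4, e3⟩) (by simpa using hAM ha) (f1 a ha haQ)
      (f1 _ (mul_mem ha ha) haa) (by simpa using hgM) hx hl l2 (by simpa using l1)
  have t2 : ∀ x ∈ D, ∀ l ∈ L, l ∉ M → g⁻¹ * l ∉ M → C.π (1⁻¹ * x * 1) = C.π (l⁻¹ * x * l) :=
    fun x hx l hl l1 l2 => two_pt (f := fun x l => C.π (l⁻¹ * x * l)) (g₂ := g) (hf (g * a * g⁻¹))
      (one_mem L) (mul_mem (mul_mem hg haL) (inv_mem hg)) (n2 (H7.conj_mem_cj ha))
      (fun x hx l hl l' hl' e1 e2 e3 e4 => (hD hx).2 l ⟨hl, by simpa using e1, e2⟩ l'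
        ⟨hl', by simpa using e3, e4⟩) (by simpa [mul_assoc] using hAM ha)
      (by simpa using f2 a ha haQ) (by simpa [mul_assoc] using f2 _ (mul_mem ha ha) haa)
      (by simpa using hgM) hx hl (by simpa using l1) l2
  have o1 : a * g ∉ M := fun e => hgM (by simpa using mul_mem (inv_mem (hAM ha)) e)
  have o2 : g⁻¹ * (a * g) ∉ M := by rw [← mul_assoc]; exact f1 a ha haQ
  have t3 : ∀ x ∈ D, ∀ l ∈ L, C.π (l⁻¹ * x * l) = C.π ((a * g)⁻¹ * x * (a * g)) := by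
    intro x hx l hl
    by_cases l1 : l ∈ M
    · rw [inv' x (hD hx).1 1 (one_mem _) l (by simpa using l1)]
      exact t2 x hx _ (mul_mem haL hg) o1 o2
    by_cases l2 : g⁻¹ * l ∈ M
    · rw [inv' x (hD hx).1 g hg l l2]
      exact t1 x hx _ (mul_mem haL hg) o1 o2
    exact (hD hx).2 l ⟨hl, l1, l2⟩ _ ⟨mul_mem haL hg, o1, o2⟩
  exact (sup_le le_sup_left hV).trans fun x hx =>
    ⟨(hD hx).1, fun l hl l' hl' => (t3 x hx l hl).trans (t3 x hx l' hl').symm⟩

theorem loc_transfer (hp2 : p ≠ 2) (h : Loc p L) (hS : IsSylowIn p S L) (hu : MinOver S L M)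
    {R F : Subgroup X} (hR : CLA S R) (hR' : R ≤ centralizer (R : Set X))
    (hF : ⁅pCoreOf p L, M⁆ ≤ F) : ⁅pCoreOf p L, pResidualOf p L⁆ ≤ F := by
  obtain ⟨A, hA, hQ⟩ := h.big S hS
  have hcd : ∀ B, MaxAb 0 S B → CDA S B := fun B => cda_of_maxAb hR hR'
  have nQ := H7.le_normalizer_pCoreOf p L
  have hQS := hS.pCoreOf_le
  have hQQ : ⁅pCoreOf p L, pCoreOf p L⁆ ≤ pCoreOf p L ⊓ F := le_inf
    (H7.commutator_le_left_of_le_normalizer le_normalizer)
    ((commutator_mono le_rfl (hQS.trans hu.le)).trans hF)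
  obtain ⟨V, _, ⟨C⟩⟩ := exists_secMap inf_le_left hQQ
  have h0 := loc_const hp2 h hS hu hA hQ hcd hF C
  obtain ⟨h1, h2⟩ := h.repl' h.fmV hS hA hQ
  have hq := h.quad' h.fmV hS
  have m := h.fmV
  set N := cst C L nQ
  set A' := A ⊓ QQ ⊔ ctr QQ
  have hA' : A' ≤ QQ := sup_le inf_le_right inf_le_left
  have hNQ : N ≤ QQ := fun x hx => hx.1
  have nN : L ≤ normalizer (N : Set X) := fun g hg => H7.mem_normalizer_of_conj_mem fun x hx =>
    ⟨conj_mem_of_mem_normalizer (nQ hg) hx.1, fun l hl l' hl' => by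
      have := hx.2 _ (mul_mem (inv_mem hg) hl) _ (mul_mem (inv_mem hg) hl')
      convert this using 2 <;> group⟩
  have cN : ⁅N, L⁆ ≤ F := commutator_le.2 fun x hx l hl => by
    have e := C.map_commutator (nQ hl) hx.1
    have e2 := hx.2 _ (inv_mem hl) 1 (one_mem _)
    rw [inv_inv, inv_one, one_mul, mul_one] at e2
    rw [e2, sub_self, C.eq_zero _ (commutatorElement_mem_of_normalizer (nQ hl) hx.1)] at e
    rw [← commutatorElement_inv]
    exact inv_mem e.2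
  obtain ⟨Y, ⟨y1, y2, y3⟩, y4⟩ := (wellFounded_lt (α := Subgroup X)).has_min
    {Y | CDA S Y ∧ Y ≤ A' ∧ S ⊓ centralizer (Y : Set X) ≤ N}
    ⟨A', hcd _ h2, le_rfl, (H9.maxAb_le h2 inf_le_left inf_le_right).trans h0⟩
  have nY : L ≤ normalizer (Y : Set X) := fun l hl => by
    have e1 : cj l (S ⊓ centralizer (Y : Set X)) ≤ S ⊓ centralizer (cj l Y : Set X) :=
      le_inf ((H7.cj_le_of_le (nQ hl) (y3.trans hNQ)).trans hQS)
        (by rw [← H7.cj_centralizer]; exact H7.cj_mono inf_le_right)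
    have e0 : cj l Y ≤ S := (H7.cj_le_of_le (nQ hl) (y2.trans hA')).trans hQS
    have e2 := y1.of_le e0 (Nat.mul_le_mul (H7.card_cj l Y).ge
      ((H7.card_cj l _).ge.trans (card_le_of_le e1)))
    have e3 := y1.meas_le e0
    rw [H7.card_cj, ← H7.card_cj l (S ⊓ centralizer (Y : Set X))] at e3
    have e4 := H7.eq_of_le_of_card_le e1 (Nat.le_of_mul_le_mul_left e3 Nat.card_pos)
    have e5 := eq_of_le_of_not_lt inf_le_left (y4 _ ⟨y1.inf e2, inf_le_left.trans y2, by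
      rw [y1.cent_inf e2, ← e4]; exact sup_le y3 (H7.cj_le_of_le (nN hl) y3)⟩)
    exact H7.mem_normalizer_iff_cj.2 (H7.eq_of_le_of_card_le (inf_eq_left.1 e5)
      (H7.card_cj l Y).le).symm
  have hAL := hA.le.trans hS.le
  have c1 : ⁅Y, A⁆ ≤ ctr QQ := (commutator_mono y2 le_rfl).trans (H7.sup_commutator_le
    ((inf_le_left.trans hAL).trans m.n) le_normalizer
    (H7.commutator_le_of_le_centralizer (le_centralizer_iff.1 (inf_le_left.trans hA.comm)))
    (H7.commutator_le_left_of_le_normalizer (hAL.trans m.n)))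
  have c2 := h.commutator_residual_le hS nY m.n hA.le hQ c1
  have hRL := H7.pResidualOf_le p L
  set W := ⁅QQ, pResidualOf p L⁆
  have hWQ : W ≤ QQ := H7.commutator_le_left_of_le_normalizer (hRL.trans nQ)
  have hWR : W ≤ pResidualOf p L := H7.commutator_le_right_of_le_normalizer
    ((H7.pCoreOf_le p L).trans (H7.le_normalizer_pResidualOf p L))
  have nW : L ≤ normalizer (W : Set X) :=
    H7.le_normalizer_commutator nQ (H7.le_normalizer_pResidualOf p L)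
  have hWA : ⁅W, A⁆ ≤ W := H7.commutator_le_left_of_le_normalizer (hAL.trans nW)
  have q1 : ⁅ctr QQ, A⁆ ≤ centralizer (S : Set X) := (commutator_mono le_rfl hA.le).trans hq
  have q2 : S ≤ normalizer ((⁅ctr QQ, A⁆ : Subgroup X) : Set X) :=
    H7.le_normalizer_of_le_centralizer (le_centralizer_iff.1 q1)
  have c3 : ⁅⁅W, A⁆, Y⁆ ≤ ⁅ctr QQ, A⁆ := H7.three_subgroups ((hWQ.trans hQS).trans q2)
    (hA.le.trans q2) (y1.1.trans q2) (by
      rw [commutator_comm A]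
      exact (commutator_mono c1 le_rfl).trans (H7.commutator_le_of_le_centralizer (hWQ.trans m.cen)))
    (commutator_mono ((commutator_mono le_rfl hWR).trans c2) le_rfl)
  have c4 : ⁅⁅⁅W, A⁆, A⁆, Y⁆ ≤ ⊥ := H7.three_subgroups le_normalizer_of_normal le_normalizer_of_normal
    le_normalizer_of_normal (by
      rw [commutator_comm A]
      exact (commutator_mono c1 le_rfl).trans (H7.commutator_le_of_le_centralizer
        ((hWA.trans hWQ).trans m.cen)))
    (by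
      rw [commutator_comm Y]
      exact (commutator_mono c3 le_rfl).trans (H7.commutator_le_of_le_centralizer
        (hA.le.trans (le_centralizer_iff.1 q1))))
  have c5 : ⁅⁅W, A⁆, A⁆ ≤ W ⊓ N := by
    have e := (commutator_mono hWA le_rfl).trans hWA
    exact le_inf e (le_trans (le_inf ((e.trans hWQ).trans hQS)
      (le_centralizer_iff.1 (H7.le_centralizer_of_commutator_le_bot c4))) y3)
  obtain ⟨a, ha, haQ⟩ := SetLike.not_le_iff_exists.1 hQ
  have hWp : IsPGroup p W := (H7.isPGroup_pCoreOf p L).to_le hWQ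
  have key := osl_local (W := W) (W' := W ⊓ N) (Y := phi p W ⊔ W ⊓ F)
    (L0.isSyl_iff_isSylowIn.2 hS) hu.le hu.lt.le hu.not_le
    (fun K k1 k2 k3 => (hu.eq_or_le k1 k2).resolve_left k3) (hA.le ha) haQ nW
    (sup_le (phi_le W) inf_le_left) ((commutator_le_phi W).trans le_sup_left)
    (fun x hx => mem_sup_left (pow_mem_phi hx))
    (le_sup_of_le_right (le_inf (H7.commutator_le_left_of_le_normalizer (hu.lt.le.trans nW))
      ((commutator_mono hWQ le_rfl).trans hF))) inf_le_left (H7.le_normalizer_inf nW nN)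
    (le_sup_of_le_right (le_inf ((commutator_mono inf_le_left le_rfl).trans
      (H7.commutator_le_left_of_le_normalizer nW)) ((commutator_mono inf_le_right le_rfl).trans cN)))
    fun w hw => ic_mem_of_le (H7.le_normalizer_inf nW nN (hAL ha)) (m := 2)
      (by have := hp.out.two_le; omega) (c5 (ic_mem_iter ha hw 2))
  have e := H7.commutator_commutator_pResidualOf (H7.isPGroup_pCoreOf p L) (hRL.trans nQ)
  exact (le_of_le_phi_sup hWp inf_le_left (e.ge.trans ((commutator_mono le_rfl hRL).trans key))).trans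
    inf_le_right

end Cfsg.H8
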