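import Cfsg.Agent.H7.FF6
import Cfsg.Agent.H7.FF7
import Cfsg.Agent.H8.GNTr1

/-! Abelian best offenders of minimal parabolic groups, and rank one subgroups. -/

set_option autoImplicit false
set_option linter.unusedSectionVars false
universe u
open Subgroup Matrix Cfsg Cfsg.H7 Cfsg.H7.Md
open scoped commutatorElement MatrixGroups

namespace Cfsg.H8

section md
variable {Γ V : Type*} [Group Γ] [AddCommGroup V] [DistribMulAction Γ V] {p : ℕ}
  {F : Type*} [Field F] {ψ : V →+ (Fin 2 → F)} {T M X L A B : Subgroup Γ}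

theorem nat2_triv (h : Nat2 F X L ψ) {b : Γ} (h1 : b ∈ normalizer (X : Set Γ))
    (h2 : b ∈ normalizer (L : Set Γ)) (h3 : ∀ v, b • v - v ∈ fx V X)
    (h4 : ∀ u ∈ cm (⊤ : AddSubgroup V) X, b • u = u) :
    ∃ x ∈ X, ∀ v, (x * b) • v - v ∈ fx V L := by
  obtain ⟨w, hw, hw2⟩ := h.exists_weyl
  obtain ⟨x, hx, e⟩ := h.exists_mul_mem_normalizer hw hw2 h1 h2
  refine ⟨x, hx, fun v => ?_⟩
  have s : x * b ∈ st Γ (fx V L) :=
    mul_mem (le_st_fx L (h.le hx)) (normalizer_le_st_fx _ h2)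
  obtain ⟨u, u0, u1⟩ := h.surj' (ψ v 0) 0
  have m : v - u ∈ fx V (cj w X) := by rw [h.mem_fx_cj (by simp) hw2]; simp [u0]
  have k1 : (x * b) • (v - u) - (v - u) ∈ fx V L := by
    rw [← h.fx_inf_cj hw (h.weyl_not_mem hw2)]
    refine AddSubgroup.mem_inf.2 ⟨?_, sub_mem (smul_mem (normalizer_le_st_fx _ e) m) m⟩
    have := add_mem (smul_mem (le_st_fx X hx) (h3 (v - u))) (h.quad (sub_mem_cm_top hx (v - u)))
    rwa [smul_sub x, ← mul_smul, sub_add_sub_cancel] at this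
  have k2 : (x * b) • u - u ∈ fx V L := by
    obtain ⟨y, hy, z, hz, rfl⟩ := AddSubgroup.mem_sup.1 (h.fxA_eq ▸ (h.fxA u).2 u1)
    rw [smul_add, mul_smul x b z, h4 z hz, h.quad hz x hx, add_sub_add_right_eq_sub]
    exact sub_mem (smul_mem s hy) hy
  have := add_mem k1 k2
  rwa [smul_sub, sub_add_sub_comm, sub_add_cancel, sub_add_cancel] at this

variable [Fact p.Prime] [Finite Γ] [Finite V]

theorem dm_cm_le (hV : ∀ v : V, p • v = 0) (hX : Dm p V X) (hB : IsPGroup p B)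
    (h1 : B ≤ normalizer (X : Set Γ)) (h2 : cm ⊤ X ≤ fx V B) (h3 : ¬ ⊤ ≤ fx V X) :
    cm ⊤ B ≤ fx V X := by
  obtain ⟨z, -, z1, z2⟩ := exists_fixed hV hB (U := ⊤) (by simp) (h1.trans (normalizer_le_st_fx X)) h3
  have hc : ∀ b ∈ B, ∀ x ∈ X, b * x = x * b := fun b hb x hx => by
    have m := conj_mem_of_mem_normalizer (h1 hb) hx
    by_contra e
    refine z1 (hX.fix (x⁻¹ * (b * x * b⁻¹)) (mul_mem (inv_mem hx) m) (fun e2 => e ?_) z ?_)
    · rwa [inv_mul_eq_one, eq_mul_inv_iff_mul_eq, eq_comm] at e2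
    have e1 := h2 (sub_mem_cm_top hx z) b hb
    have e2 := z2 b hb _ m
    rw [smul_sub, ← mul_smul, inv_mul_cancel_right] at e2
    rw [smul_sub, ← mul_smul] at e1
    rw [mul_smul, inv_smul_eq_iff]
    linear_combination (norm := abel) e1 - e2
  obtain ⟨x, hx, x1⟩ := exists_ne_one_of_ne_bot hX.ne
  refine cm_top_le_iff.2 fun b hb v => hX.fix x hx x1 _ ?_
  have e1 := h2 (sub_mem_cm_top hx v) b hb
  rw [smul_sub, ← mul_smul, hc b hb x hx, mul_smul] at e1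
  rw [smul_sub]
  linear_combination (norm := abel) e1

theorem nat2_sylow (hV : ∀ v : V, p • v = 0) (h : Nat2 F X L ψ) (hX : IsPGroup p X) :
    IsSylowIn p X L := ⟨h.le, hX, fun R r1 r2 r3 => le_antisymm (fun r hr => by
  obtain ⟨z, -, z1, z2⟩ := exists_fixed hV r1 (U := ⊤) (by simp) (r3.trans (le_st_fx L))
    fun e => h.not_cm_le (le_top.trans e)
  obtain ⟨x, hx, x1⟩ := exists_ne_one_of_ne_bot h.ne_bot
  have z3 := (h.fxA z).1 (h.mem_fx_of_ne hx x1 (z2 x (r2 hx)))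
  have z4 : ψ z 0 ≠ 0 := fun e => z1 (h.ker'.2 ⟨e, z3⟩)
  obtain ⟨a, b, c, d, hd, e⟩ := h.mat' (r3 hr)
  have z5 := h.ker'.1 (z2 r hr)
  simp only [map_sub, Pi.sub_apply, (e z).1, (e z).2, z3, mul_zero, add_zero, sub_zero] at z5
  obtain rfl : a = 1 := mul_right_cancel₀ z4 (by rw [one_mul]; exact sub_eq_zero.1 z5.1)
  obtain rfl : c = 0 := (mul_eq_zero.1 z5.2).resolve_right z4
  obtain rfl : d = 1 := by simpa using hd
  exact h.mem_of_act (r3 hr) e) r2⟩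

theorem exists_ea_of_bst (hV : ∀ v : V, p • v = 0) (hf : cz Γ (⊤ : AddSubgroup V) = ⊥)
    (hA : IsPGroup p A) (hc : A ≤ centralizer (A : Set Γ)) (hb : Bst V A) (h0 : A ≠ ⊥) :
    ∃ B ≤ A, IsElementaryAbelian p B ∧ B ≠ ⊥ ∧ ms V B = ms V A ∧ cm ⊤ A ≤ fx V B :=
  have h1 : cm ⊤ A ≤ fx V (A ⊓ cz Γ (cm (⊤ : AddSubgroup V) A)) := le_fx_iff.2 inf_le_right
  ⟨_, inf_le_left, ea_of_cm hV hf ((cm_mono le_rfl inf_le_left).trans h1), fun e =>
    tim_not_le hV hA (smul_comm_of_ea hc) hb (by rwa [hf, le_bot_iff]) (e.le.trans bot_le),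
    tim_ms (smul_comm_of_ea hc) hb ⊤, h1⟩

theorem le_DT_of_bst {r : ℕ} {E : Fin r → Subgroup Γ} (hm : PM p V T M) (h : FS p V T M X L E)
    (hAT : A ≤ T) (hc : A ≤ centralizer (A : Set Γ)) (hb : Bst V A) : A ≤ DT p V T := by
  induction A using WellFoundedLT.induction with | ind A ih =>
  rcases eq_or_ne A ⊥ with rfl | a0
  · exact bot_le
  obtain ⟨B, b1, b2, b3, b4, b5⟩ := exists_ea_of_bst h.tor h.faith (h.syl.isPGroup.to_le hAT) hc hb a0
  have hms : Nat.card V ≤ ms V A := ms_bot.ge.trans (hb ⊥ bot_le)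
  obtain ⟨e0, Y, y1, y2, -⟩ := hm.toMH.exists_dm h.tor h.faith
    (fun _ => exists_minOver_pmin hm.syl hm.um hm.op) b2 b3 (b4 ▸ hms)
  have hYA := y1.trans b1
  obtain ⟨t, ht, rfl⟩ := h.orb Y y2 (hYA.trans hAT)
  have hL : ¬ cj t L ≤ M := fun e =>
    h.not_le ((cj_le_iff.mp e).trans (cj_eq_of_mem (inv_mem (h.le ht))).le)
  have hl := h.lam.conj t
  generalize cj t X = Y, cj t L = K at *
  have c1 : A ≤ centralizer (Y : Set Γ) := hc.trans (centralizer_anti hYA)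
  have hn : A ≤ normalizer (K : Set Γ) := fun a ha => h.toSH.mem_normalizer_lam y2 (hYA.trans hAT)
    hl hL (h.le (hAT ha)) (centralizer_le_normalizer _ (c1 ha))
  have c2 := b5.trans (fx_anti y1)
  obtain ⟨F, _, _, ψ, -, n⟩ := hl
  set A' := A ⊓ rl Γ ⊤ (fx V K)
  have h1 : Y ⊔ A' = A := by
    refine le_antisymm (sup_le hYA inf_le_left) fun a ha => ?_
    obtain ⟨x, hx, e⟩ := nat2_triv n (centralizer_le_normalizer _ (c1 ha)) (hn ha)
      (fun v => c2 (sub_mem_cm_top ha v)) fun u hu => cm_le_fx_of_comm c1 c2 hu a ha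
    have : x * a ∈ A' := ⟨mul_mem (hYA hx) ha, mem_rl.2
      ⟨normalizer_le_st_fx _ (hn (mul_mem (hYA hx) ha)), fun u _ => e u⟩⟩
    simpa using mul_mem (mem_sup_left (inv_mem hx)) (mem_sup_right this : x * a ∈ Y ⊔ A')
  have k2 : cm ⊤ A' ≤ fx V K := le_rl_top_iff.1 inf_le_right
  have k3 : A' ≤ centralizer (K : Set Γ) := fun a ha l hl => by
    have m : l⁻¹ * (a * l * a⁻¹) ∈ K :=
      mul_mem (inv_mem hl) (cj_le_of_le (hn ha.1) le_rfl (conj_mem_cj hl))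
    have := n.eq_one_of_sub m fun v => by
      have m1 := k2 (sub_mem_cm_top (inv_mem ha) v)
      have m2 := k2 (sub_mem_cm_top ha (l • a⁻¹ • v))
      have e : (l⁻¹ * (a * l * a⁻¹)) • v - v = (a • l • a⁻¹ • v - l • a⁻¹ • v) + (a⁻¹ • v - v) := by
        rw [← m2 _ (inv_mem hl), smul_sub, inv_smul_smul]; simp only [mul_smul]; abel
      rw [e]; exact add_mem m2 m1
    rw [inv_mul_eq_one, eq_mul_inv_iff_mul_eq] at this
    exact this
  have k4 : cm ⊤ K ≤ fx V A' := cm_le_fx_of_comm k3 k2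
  have a1 := card_sup_mul_inf (fx V A') (fx V Y)
  have a3 : fx V A' ⊔ fx V Y = ⊤ := eq_top_iff.mpr (n.cm_sup_fx.ge.trans (sup_le_sup k4 n.fx_le))
  rw [a3, AddSubgroup.card_top, ← fx_sup, sup_comm, h1] at a1
  have a2 : Nat.card A ≤ Nat.card Y * Nat.card A' := by
    rw [← h1]
    exact Nat.le_of_dvd (Nat.mul_pos Nat.card_pos Nat.card_pos) (card_sup_dvd_mul
      (le_normalizer_of_le_centralizer (le_centralizer_iff.mp (inf_le_left.trans c1))))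
  have a4 := y2.card_mul
  have a5 : ms V A ≤ ms V A' := Nat.le_of_mul_le_mul_left (by
    calc Nat.card V * ms V A = Nat.card A * (Nat.card (fx V A') * Nat.card (fx V Y)) := by
          rw [ms, ← a1]; ring
      _ ≤ Nat.card Y * Nat.card A' * (Nat.card (fx V A') * Nat.card (fx V Y)) := by gcongr
      _ = _ := by rw [ms, ← a4]; ring) (Nat.card_pos (α := V))
  rw [← h1]
  refine sup_le (y2.le_DT (hYA.trans hAT)) (ih A' (lt_of_le_of_ne inf_le_left fun e =>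
    n.not_cm_le ((cm_mono le_rfl (hYA.trans e.ge)).trans k2)) (inf_le_left.trans hAT)
    (H9.comm_mono hc inf_le_left) fun C hC => (hb C (hC.trans inf_le_left)).trans a5)

omit [Finite Γ] [Finite V] in
/-- the graph, up to sign, of an action on a natural module -/
def natGraph {G : Type*} [Group G] (φ : G →* Γ) (ψ : V →+ (Fin 2 → F)) :
    Subgroup (G × SL(2, F)) where
  carrier := {x | ∃ N : SL(2, F), (N = x.2 ∨ N = -x.2) ∧ ∀ v, ψ (φ x.1 • v) = N.1 *ᵥ ψ v}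
  one_mem' := ⟨1, Or.inl rfl, by simp⟩
  mul_mem' := fun {x y} ⟨N, h1, h2⟩ ⟨K, h3, h4⟩ => ⟨N * K, by
    rcases h1 with rfl | rfl <;> rcases h3 with rfl | rfl <;> simp, fun v => by
      rw [Prod.fst_mul, map_mul, mul_smul, h2, h4, mulVec_mulVec]; rfl⟩
  inv_mem' := fun {x} ⟨N, h1, h2⟩ => ⟨N⁻¹, by rcases h1 with rfl | rfl <;> simp, fun v => by
    have := h2 (φ x.1⁻¹ • v)
    rw [← mul_smul, ← map_mul, mul_inv_cancel, map_one, one_smul] at this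
    rw [this, mulVec_mulVec, ← SL_mul_val, inv_mul_cancel]; simp⟩

end md

section lift
open Cfsg.H9 (Lift ldom Loc RO jt ctr)

variable {G : Type u} [Group G] [Finite G] {p : ℕ} [Fact p.Prime] {F : Type*} [Field F]
  {Γ : Subgroup (G × SL(2, F))} {S T H Y M : Subgroup G}

theorem exists_lift_le (hker : ∀ N, ((1 : G), N) ∈ Γ → N = 1 ∨ N = -1)
    (hneg : ((1 : G), (-1 : SL(2, F))) ∈ Γ) (hS : IsSylowIn p S Y) (hex : ∀ g ∈ Y, ∃ N, (g, N) ∈ Γ)
    (hi : ∀ b, ∃ t ∈ S, (t, H3.U b) ∈ Γ) (hSM : S ≤ M) (hn : ¬ Y ≤ M)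
    (hM : ∀ g ∈ Y, ∀ N, (g, N) ∈ Γ → (g ∈ M ↔ N ∈ upper F)) :
    ∃ L ≤ Y, UniqMax S L (L ⊓ M) ∧ ∃ Γ' : Subgroup (G × SL(2, F)), Lift p L Γ' := by
  obtain ⟨L, ⟨l1, l2, l3⟩, l4⟩ := (wellFounded_lt (α := Subgroup G)).has_min
    {L | S ≤ L ∧ L ≤ Y ∧ ¬ L ≤ M} ⟨Y, hS.le, le_rfl, hn⟩
  have u : UniqMax S L (L ⊓ M) := ⟨le_inf l1 hSM, inf_lt_left.2 l3, fun K k1 k2 =>
    le_inf k2.le (by_contra fun e => l4 K ⟨k1, k2.le.trans l2, e⟩ k2)⟩
  refine ⟨L, l2, u, Γ ⊓ L.prod ⊤, fun h => h.2.1, fun g hg => ?_, fun N => ?_,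
    fun N h => hker N h.1, ⟨hneg, one_mem _, trivial⟩, fun T K t1 t2 t3 t4 => ?_⟩
  · obtain ⟨N, h⟩ := hex g (l2 hg)
    exact ⟨N, h, hg, trivial⟩
  · have : H9.limg Γ L = ⊤ := eq_top_of_not_le_upper (by
      rintro _ ⟨b, rfl⟩
      obtain ⟨t, ht, h⟩ := hi b.toAdd
      exact ⟨t, l1 ht, h⟩) fun e => l3 fun g hg => by
        obtain ⟨N, h⟩ := hex g (l2 hg)
        exact (hM g (l2 hg) N h).2 (e ⟨g, hg, h⟩)
    obtain ⟨g, hg, h⟩ := this.ge (mem_top N)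
    exact ⟨g, h, hg, trivial⟩
  · obtain ⟨x, hx, e⟩ := t1.exists_cj (hS.mono l1 l2)
    rcases u.eq_or_le (X := cj x K) (e ▸ cj_mono t2) (cj_le_of_le' hx t3) with h | h
    · rw [← cj_le_cj_iff (g := x), h, cj_eq_of_mem hx]
    obtain ⟨N, hN⟩ := hex x (l2 hx)
    obtain ⟨k, hk, h1⟩ := t4 (N⁻¹ * H3.Lo 1 * N)
    have h2 := H9.gconj hN h1.1
    have h3 := h (conj_mem_cj hk)
    have := (hM _ (l2 h3.1) _ h2).1 h3.2
    simp [mul_assoc, Lo_mem_upper] at this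

theorem loc_reduce (h : Loc p H) (hT : IsSylowIn p T H) (hu : UniqMax T H M) :
    ∃ L ≤ H, RO p L ∧ IsSylowIn p (jt T) L ∧ UniqMax (jt T) L (L ⊓ M) ∧
      ⁅pCoreOf p H, pResidualOf p L⁆ ≤ pCoreOf p L := by
  obtain ⟨T', F, _, _, _, Γ, f, -⟩ := h.exists_frame' hT
  obtain ⟨Y, y1, y2⟩ := h.jt_sylow hT
  obtain ⟨A, hA, hQ⟩ := h.big T hT
  have a1 := (h.repl' h.fmV hT hA hQ).1
  have a2 : A ≤ jt T := le_inf hA.le (hA.comm.trans (centralizer_anti hA.ZJ_le))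
  have n := le_normalizer_sup_commutator H (jt T)
  have k1 : jt T ⊔ ⁅H, jt T⁆ ≤ H := sup_commutator_le_of_normal (inf_le_left.trans hT.le) le_normalizer
  have k2 : IsSylowIn p (jt T) (jt T ⊔ ⁅H, jt T⁆) := y1.mono le_sup_left (by
    rw [← iSup_cj_eq_sup_commutator]; exact iSup_le fun g => y2 g g.2)
  have a3 := a2.trans k2.le
  generalize jt T ⊔ ⁅H, jt T⁆ = K at *
  have hB : ldom Γ (upper F) ≤ M := by
    refine (hu.eq_or_le (X := ldom Γ (upper F)) (fun t ht => ?_)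
      fun g ⟨_, _, hg⟩ => f.l.mem hg).resolve_left fun e => f.l.not_le_upper e.ge
    obtain ⟨b, hb⟩ := f.i₀.ex t ht
    exact ⟨_, U_mem_upper b, hb⟩
  obtain ⟨L, l1, l2, l3⟩ := exists_lift_le (M := M) f.l.ker f.l.neg k2 (fun g hg => f.l.ex g (k1 hg))
    (fun b => by
      obtain ⟨t, ht, e⟩ := f.i₀.surj b
      obtain ⟨a, ha, q, hq, rfl⟩ := (mem_sup_of_le_normalizer ((hA.le.trans hT.le).trans
        (le_normalizer_pCoreOf p H))).1 (a1.ge ht)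
      exact ⟨a, a2 ha, by simpa using H9.gmul e (H9.ginv (H9.mem_lker.1 (f.Q_le_ker hq)))⟩)
    (inf_le_left.trans hu.le) (fun e => hu.not_pResidualOf_le hT
      ((h.residual_le hT n hA.le a3 hQ).trans e))
    fun g hg N hN => ⟨fun e => by_contra fun e2 => hu.not_le
      (f.l.le_of_not_upper hT f.i₀.surj hu.le hu.lt.le e hN e2), fun e => hB ⟨N, e, hN⟩⟩
  have l4 := k2.mono (l2.le.trans inf_le_left) l1
  have l5 : pCoreOf p K ≤ L := k2.pCoreOf_le.trans l4.le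
  refine ⟨L, l1.trans k1, ⟨(h.char.of_normal k1 n).of_pCoreOf_le l1 l5, F, _, ‹_›, ‹_›, l3⟩, l4, l2,
    ?_⟩
  refine (commutator_mono le_rfl ((pResidualOf_le p L).trans l1)).trans ((commutator_le_inf'
    (k1.trans (le_normalizer_pCoreOf p H)) ((pCoreOf_le p H).trans n)).trans
    ((pCoreOf_inf_le k1).trans ((le_inf le_rfl l5).trans (pCoreOf_inf_le l1))))

end lift

end Cfsg.H8
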