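import Cfsg.Agent.H8.GNTr2
import Cfsg.Agent.H8.Trans

/-! Control of transfer by the centre and one further characteristic subgroup, `p` odd. -/

set_option autoImplicit false
set_option linter.unusedSectionVars false
universe u
open Subgroup Matrix Cfsg Cfsg.H7 Cfsg.H7.Md
open Cfsg.H9 (Lift ldom Loc RO jt ctr MZ)
open scoped commutatorElement MatrixGroups

namespace Cfsg.H8

variable {G : Type u} [Group G] [Finite G] {p : ℕ} [hp : Fact p.Prime] {P M : Subgroup G}

theorem cent_omega_le (hp2 : p ≠ 2) (hP : IsSylowIn p P ⊤) (hu : UniqMax P ⊤ M)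
    (hc : IsCharP p (⊤ : Subgroup G)) (hZ : ¬ ⊤ ≤ centralizer (ctr P : Set G)) :
    centralizer (omegaOneCenter p (pCore p G) : Set G) ≤ M := by
  refine (hu.pResidualOf_le_or_le hP.isPGroup le_top
    (le_normalizer_centralizer le_normalizer_of_normal)).resolve_left fun e => hZ ?_
  have h1 := H9.ctr_le_ctr_Q hc hP
  rw [pCoreOf_top] at h1
  rw [← hP.sup_pResidualOf]
  refine sup_le (le_centralizer_iff.1 inf_le_right) (le_trans (pResidualOf_le_iff.2 fun x _ hx => ?_)
    (centralizer_anti h1))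
  exact mem_centralizer_of_omega hp2 (isPGroup_pCore p G).to_inf_left
    (H9.le_normalizer_ctr le_normalizer_of_normal (mem_top x)) hx fun y hy e2 =>
      e (mem_pResidualOf trivial hx) y (mem_omegaOneCenter_iff.2 ⟨hy.1, hy.2, e2⟩)

theorem exists_rank_one (hp2 : p ≠ 2) (hP : IsSylowIn p P ⊤) (hu : UniqMax P ⊤ M)
    (hc : IsCharP p (⊤ : Subgroup G)) (hZ : ¬ ⊤ ≤ centralizer (ctr P : Set G))
    (hJ : ¬ ⊤ ≤ normalizer (jt P : Set G)) :
    ∃ T H, RO p H ∧ IsSylowIn p T H ∧ UniqMax T H (H ⊓ M) ∧ jt P ≤ T ∧ pCore p G ≤ T ∧ T ≤ P := by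
  have hCM := cent_omega_le hp2 hP hu hc hZ
  set V := omegaOneCenter p (pCore p G) with hVdef
  set C := centralizer (V : Set G) with hCdef
  have hV : IsElementaryAbelian p V := ea_omegaOneCenter _ _
  have : C.Normal := normal_of_le_normalizer_top (le_normalizer_centralizer le_normalizer_of_normal)
  obtain ⟨Γ, W, _, _, _, _, _, ⟨r⟩⟩ := exists_rep (V := V) (L := ⊤) (N := C)
    (ea_le_centralizer hV) le_normalizer_of_normal le_normalizer_of_normal le_rfl
  have hOT : pCore p G ≤ P := pCoreOf_top p G ▸ hP.pCoreOf_le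
  have hVT : V ≤ P := (omegaOneCenter_le _ _).trans hOT
  have hOC : pCore p G ≤ C := le_centralizer_omegaOneCenter _ _
  have hPC : P ⊓ C ≤ pCore p G := pCoreOf_top p G ▸ hu.inf_le_pCoreOf hP hCM le_normalizer_of_normal
  have ub : up r.π ⊥ = C := by rw [r.up_bot, inf_top_eq]
  have ud : ∀ X : Subgroup G, up r.π (down r.π X) = X ⊔ C := fun X => by
    rw [up_down _ le_top, ub]
  have hf := r.faithful inf_le_right
  have syl : IsSylowIn p (down r.π P) ⊤ := down_top r.surj ▸ (hP.subgroupOf le_rfl).map r.π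
  have uM : up r.π (down r.π M) = M := by rw [ud, sup_eq_left.2 hCM]
  have um : UniqMax (down r.π P) ⊤ (down r.π M) :=
    ⟨down_mono _ hu.le, lt_top_iff_ne_top.mpr fun e => hu.not_le (by
        rw [← uM, e, up_top]), fun X h1 h2 => by
      rw [← up_le_up_iff r.surj, ud] at *
      refine (hu.max _ (le_sup_left.trans h1) (lt_top_iff_ne_top.mpr fun e => h2.ne ?_)).trans
        le_sup_left
      rw [← down_up r.surj X, e, down_top r.surj]⟩
  have op : pCore p Γ = ⊥ := by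
    have hn : ⊤ ≤ normalizer (up r.π (pCore p Γ) : Set G) := le_normalizer_up _ _
    have hp : ∀ x ∈ up r.π (pCore p Γ), ∃ k : ℕ, x ^ p ^ k ∈ C := fun x hx => by
      obtain ⟨h1, h2⟩ := mem_up.mp hx
      obtain ⟨k, hk⟩ := isPGroup_iff_mem.mp (isPGroup_pCore p Γ) _ h2
      exact ⟨k, (r.ker (⟨x, h1⟩ ^ p ^ k)).mp (by rw [map_pow, hk])⟩
    have h1 := (hu.pResidualOf_le_or_le hP.isPGroup le_top hn).resolve_left fun e =>
      hu.not_pResidualOf_le hP (by
        rw [← pResidualOf_eq_of_le e le_top]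
        exact (pResidualOf_le_of_pow_mem hp).trans hCM)
    have h2 := (hP.inf_of_normal le_top hn).le_sup_of_pow_mem le_normalizer_of_normal hp
    rw [eq_bot_iff, ← up_le_up_iff r.surj, ub]
    exact h2.trans (sup_le ((hu.inf_le_pCoreOf hP h1 hn).trans (by rwa [pCoreOf_top])) le_rfl)
  have bst : ∀ A, MaxAb 0 P A → down r.π A ≤ centralizer (down r.π A : Set Γ) ∧
      Bst W (down r.π A) := fun A hA => by
    refine ⟨commutator_eq_bot_iff'.1 (by
      rw [← down_commutator _ le_top le_top, commutator_eq_bot_iff'.2 hA.comm, down_bot]),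
      fun B hB => ?_⟩
    have e : down r.π (A ⊓ up r.π B) = B := le_antisymm ((down_le_iff' le_top).2 inf_le_right)
      fun b hb => let ⟨x, h1, h2⟩ := mem_down.1 (hB hb)
        h2 ▸ mem_down_of_mem ⟨h1, coe_mem_up.2 (h2 ▸ hb)⟩
    have h1 := H9.maxAb_best hA hVT (ea_le_centralizer hV) (A ⊓ up r.π B) inf_le_left
    rw [← r.ms_down le_top, ← r.ms_down le_top, e, show C ⊓ (A ⊓ up r.π B) = C ⊓ A from
      le_antisymm (inf_le_inf_left _ inf_le_left) (le_inf inf_le_left (le_inf inf_le_right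
        (inf_le_left.trans (ub.ge.trans (up_mono _ bot_le)))))] at h1
    exact Nat.le_of_mul_le_mul_right h1 Nat.card_pos
  obtain ⟨A, hA, hAC⟩ : ∃ A, MaxAb 0 P A ∧ ¬ A ≤ C := by
    by_contra! e
    have h1 := ZJ_eq_of_le ((le_inf (JT_le 0 P) (JT_le_iff.2 e)).trans hPC) hOT
    have h2 : jt P = jt (pCore p G) := by
      rw [jt, jt, h1]
      refine le_antisymm (le_inf (le_trans (inf_le_inf_left _ (centralizer_anti ?_)) hPC)
        inf_le_right) (inf_le_inf_right _ hOT)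
      exact h1 ▸ H9.le_ZJ_zero (omegaOneCenter_le _ _) (omegaOneCenter_le_centralizer _ _)
    exact hJ (h2 ▸ H9.le_normalizer_jt le_normalizer_of_normal)
  obtain ⟨B, b1, b2, b3, b4, -⟩ := exists_ea_of_bst (r.tor hV) hf (isPGroup_down _
    (hP.isPGroup.to_le hA.le)) (bst A hA).1 (bst A hA).2
    fun e => hAC (ub ▸ (down_eq_bot_iff le_top).mp e)
  have b5 : Nat.card W ≤ ms W B := b4 ▸ ms_bot.ge.trans ((bst A hA).2 ⊥ bot_le)
  have H : PM p W (down r.π P) (down r.π M) :=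
    { syl := syl, le := um.le, tor := r.tor hV, faith := hf, um := um, op := op
      cz := (um.eq_or_le (le_cz_fx _) le_top).resolve_left fun e =>
        fix_pmin (r.tor hV) hf syl um op b2 b3 b5 (le_fx_iff.2 (le_top.trans e.ge)) }
  obtain ⟨X, L, n, E, h, -⟩ := H.structure b2 b3 b5
  obtain ⟨F, _, _, ψ, hF, nt⟩ := h.lam
  set B₀ := down r.π (jt P)
  have hBT : B₀ ≤ down r.π P := down_mono _ inf_le_left
  have c1 : cm ⊤ X ≤ fx W B₀ := by
    have e : r.uv (cm ⊤ X) ≤ ZJ 0 P := le_ZJ ((r.uv_le _).trans hVT) (le_centralizer_iff.1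
      (JT_le_iff.2 fun A' hA' => le_centralizer_iff.1 (((r.uv_mono ((cm_le_fx_DT h.toFH syl.isPGroup
        h.dm h.leT).trans (fx_anti (le_DT_of_bst H h (down_mono _ hA'.le) (bst A' hA').1
          (bst A' hA').2)))).trans (r.uv_fx_down le_top).le).trans inf_le_right)))
      fun b _ => pow_zero b
    rw [← r.uv_le_uv, r.uv_fx_down le_top]
    exact le_inf (r.uv_le _) (e.trans (le_centralizer_iff.1 inf_le_right))
  have n1 : B₀ ≤ normalizer (X : Set Γ) := fun b hb => mem_normalizer_iff_cj.2 (by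
    by_contra e
    have := (h.toSH.cm_le_fx_lam h.dm (h.dm.conj b) h.leT (cj_le_of_le' (hBT hb) h.leT) (Ne.symm e)
      h.lam h.not_le).1
    rw [← sm_cm_top, sm_eq_of_mem_st (cz_le_st _ (le_fx_iff.1 c1 hb))] at this
    exact nt.not_cm_le this)
  have n2 : B₀ ≤ normalizer (L : Set Γ) := fun b hb =>
    h.toSH.mem_normalizer_lam h.dm h.leT h.lam h.not_le (um.le (hBT hb)) (n1 hb)
  have c2 := dm_cm_le (r.tor hV) h.dm (syl.isPGroup.to_le hBT) n1 c1 fun e =>
    nt.not_cm_le (cm_le_of_le_fx e)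
  have hD : B₀ ⊔ X ≤ down r.π P := sup_le hBT h.leT
  have dec : ∀ g ∈ B₀ ⊔ L, ∃ l ∈ L, l⁻¹ * g ∈ B₀ ⊔ X ∧ ∀ v, ψ (g • v) = ψ (l • v) := fun g hg => by
    obtain ⟨l, hl, b, hb, rfl⟩ := (mem_sup_of_le_normalizer' n2).1 (sup_comm B₀ L ▸ hg)
    obtain ⟨x, hx, e⟩ := nat2_triv nt (n1 hb) (n2 hb) (fun v => c2 (sub_mem_cm_top hb v))
      fun u hu => c1 hu b hb
    have m := mul_mem hl (inv_mem (nt.le hx))
    refine ⟨l * x⁻¹, m, by
      simpa [mul_assoc] using mul_mem (mem_sup_right hx) (mem_sup_left hb : b ∈ B₀ ⊔ X), fun v => ?_⟩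
    rw [← sub_eq_zero, ← map_sub, nt.ker]
    have := smul_mem (le_st_fx L m) (e v)
    rwa [smul_sub, ← mul_smul, mul_assoc, inv_mul_cancel_left] at this
  set T := P ⊓ up r.π (B₀ ⊔ X)
  have dT : down r.π T = B₀ ⊔ X := le_antisymm ((down_le_iff' le_top).2 inf_le_right)
    fun b hb => let ⟨x, h1, h2⟩ := mem_down.1 (hD hb)
      h2 ▸ mem_down_of_mem ⟨h1, coe_mem_up.2 (h2 ▸ hb)⟩
  have hCT : pCore p G ≤ T := le_inf hOT (hOC.trans (ub.ge.trans (up_mono _ bot_le)))
  have s1 : IsSylowIn p (B₀ ⊔ X) (B₀ ⊔ L) := (isSylowIn_self (syl.isPGroup.to_le hBT)).sup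
    (nat2_sylow (r.tor hV) nt h.dm.isPGroup) n2 n1
  have s2 := (isSylowIn_self (hP.isPGroup.to_inf_left (K := up r.π (B₀ ⊔ X)))).sup
    (hP.inf_of_normal (N := C) le_top le_normalizer_of_normal) le_normalizer_of_normal
    (inf_le_left.trans (le_normalizer_inf le_normalizer le_normalizer_of_normal))
  rw [sup_eq_left.2 (hPC.trans hCT)] at s2
  have s3 : IsSylowIn p T (up r.π (B₀ ⊔ L)) := ⟨inf_le_right.trans (up_mono _ s1.le), s2.isPGroup,
    fun R r1 r2 r3 => s2.max R r1 r2 (by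
      rw [← ud, dT, ← s1.max _ (isPGroup_down _ r1) (dT ▸ down_mono _ r2)
        ((down_le_iff' le_top).2 r3)]
      exact le_up_down _ le_top)⟩
  let φ : G →* Γ := r.π.comp topEquiv.symm.toMonoidHom
  have hφ : ∀ {g : G} {Y : Subgroup Γ}, g ∈ up r.π Y ↔ φ g ∈ Y :=
    fun {g _} => coe_mem_up (f := r.π) (x := ⟨g, mem_top g⟩)
  obtain ⟨k, hk⟩ := IsPGroup.iff_card.1 h.dm.isPGroup
  have := H9.charP_of_card (hF.trans hk)
  obtain ⟨H₁, l1, l2, l3⟩ := exists_lift_le (Γ := natGraph φ ψ) (M := M) (fun N ⟨K, h1, h2⟩ => by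
      have : K = 1 := nt.mat_ext fun v => by rw [← h2]; simp
      rcases h1 with rfl | e
      · exact Or.inl this
      · exact Or.inr (by rw [← this, e, neg_neg]))
    ⟨1, Or.inr (neg_neg _).symm, by simp⟩ s3 (fun g hg => by
      obtain ⟨l, hl, -, e⟩ := dec _ (hφ.1 hg)
      obtain ⟨N, e2⟩ := nt.mat l hl
      exact ⟨N, N, Or.inl rfl, fun v => (e v).trans (e2 v)⟩) (fun b => by
      obtain ⟨a, ha, e⟩ := nt.upp' b
      obtain ⟨t, ht, rfl⟩ := mem_down.1 (dT.ge (mem_sup_right ha))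
      exact ⟨t, ht, _, Or.inl rfl, e⟩) (inf_le_left.trans hu.le) (fun e => h.not_le (by
      rw [← up_le_up_iff r.surj, uM]; exact (up_mono _ le_sup_right).trans e))
    fun g hg N ⟨K, h1, h2⟩ => by
      obtain ⟨l, hl, m, e⟩ := dec _ (hφ.1 hg)
      have a1 : Act ψ l (K 0 0) (K 0 1) (K 1 0) (K 1 1) :=
        act_iff.1 fun v => (e v).symm.trans (h2 v)
      have a2 := nt.mem_st_iff (by have := K.det_coe; rwa [det_fin_two] at this) a1
      have a3 : N ∈ upper F ↔ K 1 0 = 0 := by rcases h1 with rfl | rfl <;> simp [mem_upper]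
      have a4 := um.le (hD m)
      rw [a3, ← a2, ← uM, hφ, ← mul_mem_cancel_right (inv_mem a4)]
      simp only [_root_.mul_inv_rev, inv_inv, mul_inv_cancel_left]
      exact ⟨fun a5 => by_contra fun a6 => h.not_le ((nt.gen hl a6).ge.trans (sup_le
        (h.leT.trans um.le) (cj_le_of_le' a5 (h.leT.trans um.le)))), fun a5 =>
        h.toSH.mem_of_normalizer h.leT (h.toSH.lam_le_Cx h.dm h.leT h.lam h.not_le hl)
          (nt.mem_normalizer hl a5)⟩
  have l4 := l2.le.trans inf_le_left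
  exact ⟨T, H₁, ⟨hc.of_pCoreOf_le le_top (by rw [pCoreOf_top]; exact hCT.trans l4), F, _, ‹_›, ‹_›,
    l3⟩, s3.mono l4 l1, l2, le_inf inf_le_left ((le_up_down _ le_top).trans (up_mono _ le_sup_left)),
    hCT, inf_le_left⟩

theorem JT_le_jt (T : Subgroup G) : JT 0 T ≤ jt T :=
  le_inf (JT_le 0 T) (le_centralizer_iff.1 (ZJ_le_centralizer 0 T))

theorem jt_eq_of_le {T : Subgroup G} (h1 : jt P ≤ T) (h2 : T ≤ P) : jt T = jt P := by
  rw [jt, jt, ZJ_eq_of_le ((JT_le_jt P).trans h1) h2]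
  exact le_antisymm (inf_le_inf_right _ h2) (le_inf h1 inf_le_right)

variable (p) in
/-- the join of the Frattini subgroups of the distinguished minimal centrally large subgroups -/
def phiJ (T : Subgroup G) : Subgroup G := ⨆ R : {R // MZ p T R}, frat R.1

open Classical in
variable (p) in
/-- the second control subgroup -/
noncomputable def kk (T : Subgroup G) : Subgroup G :=
  if phiJ p (jt T) = ⊥ then jt T else phiJ p (jt T)

theorem exists_mz' (T : Subgroup G) : ∃ R, MZ p T R := by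
  obtain ⟨R, h⟩ := H9.exists_mz p T
  exact ⟨_, map_top_subtype T ▸ (H9.mz_map_iff T.subtype_injective).2 h⟩

theorem phiJ_le (T : Subgroup G) : phiJ p T ≤ T := iSup_le fun R => (frat_le _).trans R.2.1.1.1

theorem map_phiJ {G' : Type u} [Group G'] [Finite G'] {i : G →* G'} (hi : Function.Injective i)
    (T : Subgroup G) : (phiJ p T).map i = phiJ p (T.map i) := by
  rw [phiJ, Subgroup.map_iSup]
  refine le_antisymm (iSup_le fun R => le_iSup_of_le ⟨_, (H9.mz_map_iff hi).2 R.2⟩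
    (H9.map_frat hi _).le) (iSup_le fun ⟨R, h⟩ => ?_)
  obtain ⟨R, rfl⟩ := H9.exists_eq_map h.1.1.1
  exact le_iSup_of_le ⟨R, (H9.mz_map_iff hi).1 h⟩ (H9.map_frat hi _).ge

theorem map_jt {G' : Type u} [Group G'] [Finite G'] {i : G →* G'} (hi : Function.Injective i)
    (T : Subgroup G) : (jt T).map i = jt (T.map i) := by
  have e := map_ZJ (e := 0) (f := i) (S := T) (by rw [(MonoidHom.ker_eq_bot_iff i).2 hi, inf_bot_eq])
  refine le_antisymm (le_inf (map_mono inf_le_left) (e ▸ (H9.map_le_centralizer_iff hi).2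
    inf_le_right)) ?_
  obtain ⟨R, h⟩ := H9.exists_eq_map (inf_le_left : jt (T.map i) ≤ T.map i)
  exact h.le.trans <| map_mono (le_inf ((map_le_map_iff_of_injective hi).1 (h.ge.trans inf_le_left))
    ((H9.map_le_centralizer_iff hi).1 (e ▸ h.ge.trans inf_le_right)))

theorem map_kk {G' : Type u} [Group G'] [Finite G'] {i : G →* G'} (hi : Function.Injective i)
    (T : Subgroup G) : (kk p T).map i = kk p (T.map i) := by
  rw [kk, kk, ← map_jt hi, ← map_phiJ hi, map_eq_bot_iff_of_injective _ hi]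
  split_ifs <;> rfl

theorem kk_le (T : Subgroup G) : kk p T ≤ T := by
  rw [kk]; split_ifs
  · exact inf_le_left
  · exact (phiJ_le _).trans inf_le_left

theorem kk_ne_bot {T : Subgroup G} (hT : IsPGroup p T) (h : T ≠ ⊥) : kk p T ≠ ⊥ := by
  rw [kk]; split_ifs with e
  · exact ne_bot_of_le (JT_le_jt T) (JT_ne_bot hT (dvd_zero p) h)
  · exact e

theorem normalizer_jt_le_kk (T : Subgroup G) :
    normalizer (jt T : Set G) ≤ normalizer (kk p T : Set G) := fun g hg => by
  rw [kk]; split_ifs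
  · exact hg
  · rw [mem_normalizer_iff_cj] at hg ⊢
    exact (map_phiJ (MulAut.conj g).injective _).trans (congrArg _ hg)

theorem gn_local (hp2 : p ≠ 2) (hP : IsSylowIn p P ⊤) (hu : UniqMax P ⊤ M)
    (hc : IsCharP p (⊤ : Subgroup G)) (hZ : ¬ ⊤ ≤ centralizer (ctr P : Set G))
    (hK : ¬ ⊤ ≤ normalizer (kk p P : Set G)) : ⁅pCore p G, ⊤⁆ ≤ ⁅M, M⁆ := by
  have hJ : ¬ ⊤ ≤ normalizer (jt P : Set G) := fun e => hK (e.trans (normalizer_jt_le_kk P))
  obtain ⟨T, H, h1, h2, h3, h4, h5, h6⟩ := exists_rank_one hp2 hP hu hc hZ hJ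
  have e := jt_eq_of_le h4 h6
  have key : ∀ {K N : Subgroup G}, P ≤ N → ¬ ⊤ ≤ N → ¬ K ≤ K ⊓ M → ¬ K ≤ N := fun a1 a2 a3 a4 =>
    a3 (le_inf le_rfl (a4.trans ((hu.eq_or_le a1 le_top).resolve_left fun a5 => a2 a5.ge)))
  have z1 : ctr P ≤ ctr (jt P) := le_inf (le_inf inf_le_left (inf_le_right.trans
    (centralizer_anti (ZJ_le 0 P)))) (inf_le_right.trans (centralizer_anti inf_le_left))
  have z2 : ctr P ≤ ctr T := le_inf ((z1.trans inf_le_left).trans h4)
    (inf_le_right.trans (centralizer_anti h6))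
  have kZ := fun {K : Subgroup G} => key (K := K) (le_centralizer_iff.1 inf_le_right) hZ
  have l1 : Loc p H := ((h1.cases h2).resolve_left fun a => kZ h3.not_le
    (le_centralizer_iff.1 (z2.trans a))).resolve_left fun a =>
      key (H9.le_normalizer_jt le_normalizer) hJ h3.not_le (e ▸ a.1)
  obtain ⟨L, a1, a2, a3, a4, a5⟩ := loc_reduce l1 h2 h3
  rw [e] at a3 a4
  rw [← inf_assoc, inf_eq_left.2 a1] at a4
  have l2 : Loc p L := (a2.cases' a3 (by
    rw [ZJ_eq_of_le (JT_le_jt P) inf_le_left]; exact inf_le_right)).resolve_left fun a =>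
      kZ a4.not_le (le_centralizer_iff.1 (z1.trans a))
  have b1 : phiJ p (jt P) = ⊥ := by
    by_contra b
    refine key ((H9.le_normalizer_jt le_normalizer).trans (normalizer_jt_le_kk P)) hK a4.not_le ?_
    rw [kk, if_neg b]
    exact l2.mz_normal a3
  obtain ⟨R, hR⟩ := exists_mz' (p := p) (jt P)
  have b2 := (H9.frat_eq_bot_iff (a3.isPGroup.to_le hR.1.1.1)).1
    (le_bot_iff.1 ((le_iSup (fun R : {R // MZ p (jt P) R} => frat R.1) ⟨R, hR⟩).trans b1.le))
  have b3 := loc_transfer hp2 l2 a3 (a4.minOver a3 fun a => l2.not_le_Q a3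
    (le_pCoreOf a3.isPGroup a3.le a)) hR.1.1 (ea_le_centralizer b2) (F := ⁅M, M⁆)
    (commutator_mono (a3.pCoreOf_le.trans (a4.le.trans inf_le_right)) inf_le_right)
  have hQH : pCore p G ≤ pCoreOf p H := le_pCoreOf (isPGroup_pCore p G) (h5.trans h2.le)
    le_normalizer_of_normal
  have b4 : ⁅pCore p G, pResidualOf p L⁆ ≤ ⁅M, M⁆ := by
    rw [← commutator_commutator_pResidualOf (isPGroup_pCore p G) le_normalizer_of_normal]
    exact (commutator_mono ((commutator_mono hQH le_rfl).trans a5) le_rfl).trans b3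
  have b5 : M ⊔ pResidualOf p L = ⊤ := (hu.eq_or_le (hu.le.trans le_sup_left) le_top).resolve_right
    fun a => a4.not_pResidualOf_le a3 (le_inf (pResidualOf_le p L) (le_sup_right.trans a))
  have b6 : ∀ {K : Subgroup G}, ⁅pCore p G, K⁆ ≤ ⁅M, M⁆ → ⁅pCore p G, K⁆ ≤ pCore p G ⊓ ⁅M, M⁆ :=
    fun a => le_inf (commutator_le_left_of_le_normalizer le_normalizer_of_normal) a
  have b7 := b6 (commutator_mono ((h5.trans h6).trans hu.le) (le_refl M))
  rw [← b5]
  exact (commutator_sup_le (le_normalizer_of_commutator_le inf_le_left b7)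
    (le_normalizer_of_commutator_le inf_le_left (b6 b4)) b7 (b6 b4)).trans inf_le_right

theorem map_functor {Φ : ∀ {G : Type u} [Group G] [Finite G], Subgroup G → Subgroup G}
    (h : ∀ {G G' : Type u} [Group G] [Finite G] [Group G'] [Finite G'] {i : G →* G'},
      Function.Injective i → ∀ T, (Φ T).map i = Φ (T.map i))
    {G' : Type u} [Group G'] [Finite G'] {f : G →* G'} {T : Subgroup G} (hf : T ⊓ f.ker = ⊥) :
    (Φ T).map f = Φ (T.map f) := by
  have h1 := h T.subtype_injective ⊤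
  have h2 := h (i := f.comp T.subtype) ((injective_iff_map_eq_one _).2 fun x hx =>
    Subtype.ext (mem_bot.1 (hf ▸ mem_inf.2 ⟨x.2, hx⟩))) ⊤
  rw [map_top_subtype] at h1
  rw [← Subgroup.map_map, ← Subgroup.map_map, map_top_subtype, h1] at h2
  exact h2

variable (p) in
/-- the two control subgroups -/
noncomputable def gnSub (b : Bool) {G : Type u} [Group G] [Finite G] (T : Subgroup G) : Subgroup G :=
  cond b (ctr T) (kk p T)

theorem map_gnSub (b : Bool) {G' : Type u} [Group G'] [Finite G'] {i : G →* G'}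
    (hi : Function.Injective i) (T : Subgroup G) : (gnSub p b T).map i = gnSub p b (T.map i) := by
  cases b
  · exact map_kk hi T
  · exact H9.map_ctr hi T

variable (p) in
/-- the control family of Glauberman and Niles -/
noncomputable def gnFam : CtrlFam.{u} p where
  R b _ _ _ T W := T ≠ ⊥ ∧ W = gnSub p b T
  le := fun {b} _ _ _ T _ h => by
    rw [h.2]; cases b
    · exact kk_le T
    · exact inf_le_left
  ne_bot := fun {b} _ _ _ T _ hT h => by
    rw [h.2]; cases b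
    · exact kk_ne_bot hT h.1
    · exact inf_centralizer_ne_bot hT hT le_normalizer h.1
  norm := fun {b} _ _ _ T _ h g hg => by
    rw [h.2, mem_normalizer_iff_cj] at *
    exact (map_gnSub b (MulAut.conj g).injective T).trans (congrArg _ hg)
  cn := fun {b} _ _ _ T _ h => by
    rw [h.2]; cases b
    · exact (H9.le_normalizer_jt le_normalizer).trans (normalizer_jt_le_kk T)
    · exact le_centralizer_iff.1 inf_le_right
  map := fun {b} _ _ _ _ _ _ f T _ hf h => ⟨fun e => h.1 (by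
      rw [← hf, left_eq_inf, ← Subgroup.map_eq_bot_iff]; exact e), by
    rw [h.2]; exact map_functor (map_gnSub b) hf⟩
  comap := fun {b} _ _ _ _ _ _ f T _ hf h => ⟨_, ⟨fun e => h.1 (by rw [e, Subgroup.map_bot]), rfl⟩, by
    rw [h.2]; exact map_functor (map_gnSub b) hf⟩

theorem gnFam_local (hp2 : p ≠ 2) : (gnFam.{u} p).Local := fun G _ _ P M hP h1 h2 h3 h4 h5 => by
  have hP' := L0.isSyl_iff_isSylowIn.1 hP
  by_cases h0 : P = ⊥
  · rw [le_bot_iff.1 (h0 ▸ pCoreOf_top p G ▸ hP'.pCoreOf_le : pCore p G ≤ ⊥), commutator_bot_left]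
    exact bot_le
  exact gn_local hp2 hP' ⟨h1, h2.lt_top, fun K k1 k2 => h3 K k1 k2.ne⟩ (isCharP_top_iff.2 h4)
    (fun e => h5 true _ ⟨h0, rfl⟩ (top_le_iff.1 e)) fun e => h5 false _ ⟨h0, rfl⟩ (top_le_iff.1 e)

theorem gn_transfer (hp2 : p ≠ 2) {H F : Subgroup G} (hP : IsSyl p P H) (hF : ⁅P, P⁆ ≤ F)
    (h1 : P ⊓ ⁅H ⊓ centralizer (ctr P : Set G), H ⊓ centralizer (ctr P : Set G)⁆ ≤ F)
    (h2 : P ⊓ ⁅H ⊓ normalizer (kk p P : Set G), H ⊓ normalizer (kk p P : Set G)⁆ ≤ F) :
    P ⊓ ⁅H, H⁆ ≤ F := (gnFam_local hp2).transfer hP hF fun b W h => by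
  rw [h.2]; cases b
  · exact h2
  · exact h1

end Cfsg.H8
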